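import Groth.Agent.Ega2.H296.InvAlg

/-!
# Local generators of projective modules of rank one among a spanning family
-/

set_option autoImplicit false
universe u

namespace Groth.Agent.Ega2.H296.InvAlg2

open Groth.Agent.Ega2.H296.InvAlg

variable {R : Type u} [CommRing R] {Q : Type u} [AddCommGroup Q] [Module R Q]

theorem genAt_of_surj [Module.Invertible R Q] {a : R} {y : Q} (h : ∀ m : Q, ∃ r : R, a • m = r • y) :
    GenAt a y := by
  refine ⟨fun m => ?_, fun r hr => ?_⟩
  · obtain ⟨r, hr⟩ := h m
    exact ⟨1, r, by rw [pow_one, hr]⟩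
  · let S := Submonoid.powers a
    let φ := LinearMap.toSpanSingleton (Localization S) (LocalizedModule S Q)
      (LocalizedModule.mkLinearMap S Q y)
    have hφ : Function.Surjective φ := by
      intro w
      induction w using LocalizedModule.induction_on with
      | _ m s =>
        obtain ⟨r, hr⟩ := h m
        refine ⟨IsLocalization.mk' (Localization S) r (⟨a, Submonoid.mem_powers a⟩ * s), ?_⟩
        rw [LinearMap.toSpanSingleton_apply, LocalizedModule.mkLinearMap_apply,
          ← Localization.mk_eq_mk', LocalizedModule.mk_smul_mk, mul_one, LocalizedModule.mk_eq]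
        refine ⟨1, ?_⟩
        rw [one_smul, one_smul, ← hr, Submonoid.smul_def, Submonoid.smul_def, smul_smul,
          Submonoid.coe_mul]
        congr 1
        ring
    have hb : Function.Bijective φ := Module.Invertible.bijective_of_surjective hφ
    have h0 : algebraMap R (Localization S) r = 0 := by
      apply hb.1
      rw [map_zero, LinearMap.toSpanSingleton_apply, algebraMap_smul, ← map_smul, hr, map_zero]
    rw [IsLocalization.map_eq_zero_iff S] at h0
    obtain ⟨⟨_, k, rfl⟩, hk⟩ := h0
    exact ⟨k, hk⟩

theorem exists_genAt [Module.Projective R Q] {ι : Type*} [Finite ι] (x : ι → Q)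
    (hx : Submodule.span R (Set.range x) = ⊤)
    (hr : ∀ p : PrimeSpectrum R, Module.finrank (Localization.AtPrime p.asIdeal)
      (LocalizedModule p.asIdeal.primeCompl Q) = 1) (p : PrimeSpectrum R) :
    ∃ i, ∃ a ∉ p.asIdeal, GenAt a (x i) := by
  classical
  have := Fintype.ofFinite ι
  have hfin : Module.Finite R Q := ⟨⟨Finset.univ.image x, by
    rw [Finset.coe_image, Finset.coe_univ, Set.image_univ, hx]⟩⟩
  have hinv : Module.Invertible R Q := Sga3B.InvRank136.invertible_of_rank_one hr
  let S := p.asIdeal.primeCompl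
  let f := LocalizedModule.mkLinearMap S Q
  have hfree : Module.Free (Localization.AtPrime p.asIdeal) (LocalizedModule S Q) :=
    Module.free_of_flat_of_isLocalRing
  let b := Module.finBasisOfFinrankEq (Localization S) (LocalizedModule S Q) (hr p)
  have hb : ∀ w : LocalizedModule S Q, w = b.repr w 0 • b 0 := by
    intro w
    conv_lhs => rw [← b.sum_repr w]
    rw [Fin.sum_univ_one]
  let c : ι → Localization.AtPrime p.asIdeal := fun i => b.repr (f (x i)) 0
  -- the span of the images
  have hspan : Submodule.span (Localization S) (Set.range fun i => f (x i)) = ⊤ := by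
    rw [eq_top_iff]
    intro w _
    induction w using LocalizedModule.induction_on with
    | _ m s =>
      have hm : m ∈ Submodule.span R (Set.range x) := hx ▸ Submodule.mem_top
      have h1 : f m ∈ Submodule.span (Localization S) (Set.range fun i => f (x i)) := by
        have h2 : f m ∈ Submodule.map f (Submodule.span R (Set.range x)) := Submodule.mem_map_of_mem hm
        rw [Submodule.map_span, ← Set.range_comp] at h2
        exact Submodule.span_subset_span R (Localization S) _ h2
      have h3 : LocalizedModule.mk m s = IsLocalization.mk' (Localization S) 1 s • f m := by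
        rw [LocalizedModule.mkLinearMap_apply, ← Localization.mk_eq_mk', LocalizedModule.mk_smul_mk,
          one_smul, mul_one]
      rw [h3]
      exact Submodule.smul_mem _ _ h1
  have hc : ∃ i, IsUnit (c i) := by
    by_contra hcon
    push Not at hcon
    have h1 : ∀ i, c i ∈ IsLocalRing.maximalIdeal (Localization.AtPrime p.asIdeal) := fun i =>
      (IsLocalRing.mem_maximalIdeal _).2 (hcon i)
    have h2 : Submodule.span (Localization S) (Set.range fun i => f (x i)) ≤
        Submodule.comap (b.coord 0) (IsLocalRing.maximalIdeal (Localization.AtPrime p.asIdeal)) := by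
      rw [Submodule.span_le]
      rintro _ ⟨i, rfl⟩
      exact h1 i
    rw [hspan] at h2
    have h3 : b 0 ∈ Submodule.comap (b.coord 0)
        (IsLocalRing.maximalIdeal (Localization.AtPrime p.asIdeal)) := h2 Submodule.mem_top
    rw [Submodule.mem_comap, Module.Basis.coord_apply, b.repr_self, Finsupp.single_eq_same] at h3
    exact (IsLocalRing.maximalIdeal.isMaximal _).ne_top ((Ideal.eq_top_iff_one _).2 h3)
  obtain ⟨i, hi⟩ := hc
  refine ⟨i, ?_⟩
  have hgen : ∀ w : LocalizedModule S Q, ∃ z : Localization S, w = z • f (x i) := by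
    intro w
    obtain ⟨u, hu⟩ := hi
    refine ⟨b.repr w 0 * (u⁻¹ : (Localization.AtPrime p.asIdeal)ˣ), ?_⟩
    have h1 : f (x i) = c i • b 0 := hb _
    rw [h1, ← hu, smul_smul, mul_assoc, Units.inv_mul, mul_one]
    exact hb w
  have hj : ∀ j, ∃ a : R, a ∉ p.asIdeal ∧ ∃ r : R, a • x j = r • x i := by
    intro j
    obtain ⟨z, hz⟩ := hgen (f (x j))
    obtain ⟨r, s, rfl⟩ := IsLocalization.exists_mk'_eq S z
    have h1 : f (s.1 • x j) = f (r • x i) := by
      rw [map_smul, hz, ← algebraMap_smul (Localization S) s.1, smul_smul, mul_comm,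
        IsLocalization.mk'_spec, algebraMap_smul, map_smul]
    obtain ⟨t, ht⟩ := (IsLocalizedModule.eq_iff_exists S f).1 h1
    refine ⟨t.1 * s.1, fun hmem => ?_, t.1 * r, ?_⟩
    · exact (p.isPrime.mem_or_mem hmem).elim t.2 s.2
    · rw [mul_smul, mul_smul]
      exact ht
  choose a ha r hr' using hj
  refine ⟨∏ j, a j, fun hmem => ?_, genAt_of_surj fun m => ?_⟩
  · obtain ⟨j, _, hj⟩ := (Ideal.IsPrime.prod_mem_iff (hp := p.isPrime)).1 hmem
    exact ha j hj
  · have hm : m ∈ Submodule.span R (Set.range x) := hx ▸ Submodule.mem_top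
    induction hm using Submodule.span_induction with
    | mem m hm =>
      obtain ⟨j, rfl⟩ := hm
      refine ⟨(∏ k ∈ Finset.univ.erase j, a k) * r j, ?_⟩
      rw [← Finset.prod_erase_mul Finset.univ a (Finset.mem_univ j), mul_smul, hr', mul_smul]
    | zero => exact ⟨0, by rw [smul_zero, zero_smul]⟩
    | add m m' _ _ h1 h2 =>
      obtain ⟨r1, h1⟩ := h1
      obtain ⟨r2, h2⟩ := h2
      exact ⟨r1 + r2, by rw [smul_add, h1, h2, add_smul]⟩
    | smul c m _ h1 =>
      obtain ⟨r1, h1⟩ := h1
      exact ⟨c * r1, by rw [smul_comm, h1, mul_smul]⟩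

end Groth.Agent.Ega2.H296.InvAlg2
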