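import Groth.Prelude.Def_ProjUP
import Groth.Agent.Ega2.H296.InvAlg2
import Groth.Agent.Ega2.H297.SymMap
import Groth.Agent.Ega4dA.SpecGen
import Groth.Agent.Fdesc.QCohStalk
import Groth.Agent.Ega2.QCohLocal

/-!
# Generating sections of invertible modules on affine schemes

* `genAt_of_isGen`, `exists_genAt`: generators over basic opens of a quasi-coherent module on `Spec R`.
* `span_eq_top_of_generatedBy`: sections generating an invertible module on `Spec R` span its module of global sections.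
* `projective_and_finrank_of_generatedBy`.
* `isInvertible_tilde`, `generatedBy_tilde`: the converse for `tilde`.
-/

set_option autoImplicit false
universe u
open CategoryTheory CategoryTheory.Limits AlgebraicGeometry TopologicalSpace Opposite
open Groth.Agent.Fdesc.LocGen
open Groth.Agent.Ega2.H296.InvAlg

namespace Groth.Agent.Ega2.H296.AffGen

variable {R : CommRingCat.{u}}

section toModule

variable {L : (Spec R).Modules}

/-- A global section of a quasi-coherent module on `Spec R` which is a generator over `D(a)` generates the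
module of global sections after inverting `a`. -/
theorem genAt_of_isGen (hL : Coh.IsQCoh L) {a : R} {y : Γ(L, ⊤)} (U : (Spec R).Opens)
    (hU : U = PrimeSpectrum.basicOpen a) (hy : IsGen (res L (le_top : U ≤ ⊤) y)) :
    GenAt (R := R) a y := by
  have hloc : IsLocalization.Away a Γ(Spec R, U) := by
    subst hU
    exact inferInstanceAs (IsLocalization.Away a Γ(Spec R, PrimeSpectrum.basicOpen a))
  have hker : ∀ m : Γ(L, ⊤), res L (le_top : U ≤ ⊤) m = 0 → ∃ n : ℕ, a ^ n • m = 0 := by
    subst hU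
    intro m hm
    exact Fdesc.QCohStalk.spec_exists_of_map_eq_zero L hL a _ hm
  have hsm : ∀ (r : R) (m : Γ(L, ⊤)), res L (le_top : U ≤ ⊤) (r • m) =
      (algebraMap R Γ(Spec R, U) r) • res L (le_top : U ≤ ⊤) m := by
    intro r m
    exact (Scheme.Modules.map_smul_Spec (M := L) (homOfLE (le_top : U ≤ ⊤)).op r m).trans
        (algebraMap_smul _ _ _).symm
  constructor
  · intro m
    obtain ⟨c, hc⟩ := hy.exists_eq (res L (le_top : U ≤ ⊤) m)
    obtain ⟨⟨r, ⟨_, n, rfl⟩⟩, hr⟩ := IsLocalization.surj (Submonoid.powers a) c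
    simp only at hr
    have h1 : res L (le_top : U ≤ ⊤) (a ^ n • m - r • y) = 0 := by
      rw [map_sub, hsm, hsm, hc, smul_smul, ← hr, mul_comm, sub_self]
    obtain ⟨k, hk⟩ := hker _ h1
    refine ⟨k + n, a ^ k * r, ?_⟩
    rw [smul_sub, sub_eq_zero] at hk
    rw [pow_add, mul_smul, hk, mul_smul]
  · intro r hr
    have h1 : algebraMap R Γ(Spec R, U) r = 0 := by
      apply hy.ext
      rw [← hsm, hr, map_zero, zero_smul]
    obtain ⟨⟨_, l, rfl⟩, hl⟩ := (IsLocalization.map_eq_zero_iff (Submonoid.powers a)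
      Γ(Spec R, U) r).1 h1
    exact ⟨l, hl⟩

theorem exists_genAt (hL : Coh.IsQCoh L) {U : (Spec R).Opens} {y : Γ(L, ⊤)}
    (hy : IsGen (res L (le_top : U ≤ ⊤) y)) (p : Spec R) (hp : p ∈ U) :
    ∃ a ∉ p.asIdeal, GenAt (R := R) a y := by
  obtain ⟨_, ⟨_, ⟨a, rfl⟩, rfl⟩, hya, haU⟩ :=
    PrimeSpectrum.isBasis_basic_opens.exists_subset_of_mem_open hp U.isOpen
  refine ⟨a, hya, genAt_of_isGen hL (PrimeSpectrum.basicOpen a) rfl ?_⟩
  have h := hy.res (show (PrimeSpectrum.basicOpen a : (Spec R).Opens) ≤ U from haU)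
  rwa [res_res] at h

variable {ι : Type*} (s : ι → Γ(L, ⊤))

theorem exists_genAt_of_generatedBy (hL : PicF.IsInvertible L) (hs : ProjUP.GeneratedBy L s)
    (p : PrimeSpectrum R) : ∃ i, ∃ a ∉ p.asIdeal, GenAt (R := R) a (s i) := by
  have h1 := H297.SymMap.iSup_locus (L := L) s hL hs
  have h2 : (show Spec R from p) ∈ ⨆ i, H297.SymMap.locus s i := by rw [h1]; trivial
  obtain ⟨i, hi⟩ := Opens.mem_iSup.1 h2
  exact ⟨i, exists_genAt (QCohLocal.isQCoh_of_isInvertible hL) (H297.SymMap.isGen_res s i) p hi⟩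

/-- Sections generating an invertible module on `Spec R` span its global sections over `R`. -/
theorem span_eq_top_of_generatedBy (hL : PicF.IsInvertible L) (hs : ProjUP.GeneratedBy L s) :
    Submodule.span R (Set.range s) = ⊤ :=
  span_eq_top s (exists_genAt_of_generatedBy s hL hs)

theorem projective_and_finrank_of_generatedBy (hL : PicF.IsInvertible L) (hs : ProjUP.GeneratedBy L s) :
    Module.Projective R Γ(L, ⊤) ∧ ∀ p : PrimeSpectrum R, Module.finrank (Localization.AtPrime p.asIdeal)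
      (LocalizedModule p.asIdeal.primeCompl Γ(L, ⊤)) = 1 :=
  projective_and_finrank fun p => by
    obtain ⟨i, a, ha, h⟩ := exists_genAt_of_generatedBy s hL hs p
    exact ⟨s i, a, ha, h⟩

end toModule

section tilde

variable {Q : ModuleCat.{u} R}

theorem isGen_sec {a : R} {y : Q} (h : GenAt (R := R) a y) :
    IsGen (res (tilde Q) (le_top : (PrimeSpectrum.basicOpen a : (Spec R).Opens) ≤ ⊤)
      (Ega4dA.SpecGen.sec ⊤ y)) := by
  have h1 := Ega4dA.SpecGen.isGen_sec (f := a) (m := y) h.2 h.1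
  exact h1

theorem isInvertible_tilde (h : ∀ p : PrimeSpectrum R, ∃ y : Q, ∃ a ∉ p.asIdeal, GenAt (R := R) a y) :
    PicF.IsInvertible (tilde Q) := by
  rw [isInvertible_iff]
  intro p
  obtain ⟨y, a, ha, hy⟩ := h p
  exact ⟨PrimeSpectrum.basicOpen a, _, ha, isGen_sec hy⟩

theorem generatedBy_tilde {ι : Type*} (x : ι → Q)
    (h : ∀ p : PrimeSpectrum R, ∃ i, ∃ a ∉ p.asIdeal, GenAt (R := R) a (x i)) :
    ProjUP.GeneratedBy (tilde Q) (fun i => (Ega4dA.SpecGen.sec ⊤ (x i) : Γ(tilde Q, ⊤))) := by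
  intro p
  obtain ⟨i, a, ha, hy⟩ := h p
  have h1 := Ega1.GlobGenPt.span_germ_eq_top (isGen_sec hy) p (show (p : Spec R) ∈ _ from ha)
  rw [eq_top_iff, ← h1, Submodule.span_le]
  rintro _ rfl
  rw [Ega1.GlobGenPt.germ_res]
  exact Submodule.subset_span ⟨i, rfl⟩

end tilde

end Groth.Agent.Ega2.H296.AffGen
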