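import Groth.Agent.Sga3B.InvRank136
import Mathlib.RingTheory.LocalProperties.FinitePresentation
import Mathlib.RingTheory.LocalProperties.Projective
import Mathlib.RingTheory.PicardGroup
import Mathlib.Algebra.Module.FinitePresentation

/-!
# Modules of rank one through local generators

`GenAt a y`: the element `y` of the `R`-module `N` generates `N` freely after inverting `a`.
-/

set_option autoImplicit false
universe u v

namespace Groth.Agent.Ega2.H296.InvAlg

variable {R : Type u} [CommRing R] {N : Type v} [AddCommGroup N] [Module R N]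

/-- `y` is a free generator of `N` after inverting `a`. -/
def GenAt (a : R) (y : N) : Prop :=
  (∀ m : N, ∃ (k : ℕ) (r : R), a ^ k • m = r • y) ∧ ∀ r : R, r • y = 0 → ∃ k : ℕ, a ^ k * r = 0

theorem GenAt.bijective (S : Submonoid R) {a : R} (ha : a ∈ S) {y : N} (h : GenAt a y) :
    Function.Bijective (LinearMap.toSpanSingleton (Localization S) (LocalizedModule S N)
      (LocalizedModule.mkLinearMap S N y)) := by
  constructor
  · rw [injective_iff_map_eq_zero]
    intro z hz
    obtain ⟨r, s, rfl⟩ := IsLocalization.exists_mk'_eq S z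
    have h1 : LocalizedModule.mkLinearMap S N (r • y) = 0 := by
      have h2 : algebraMap R (Localization S) s.1 • (IsLocalization.mk' (Localization S) r s •
          LocalizedModule.mkLinearMap S N y) = 0 := by
        have h3 : IsLocalization.mk' (Localization S) r s • LocalizedModule.mkLinearMap S N y = 0 := hz
        rw [h3, smul_zero]
      rw [smul_smul, mul_comm, IsLocalization.mk'_spec, algebraMap_smul] at h2
      rw [map_smul, h2]
    obtain ⟨t, ht⟩ := (IsLocalizedModule.eq_zero_iff S (LocalizedModule.mkLinearMap S N)).1 h1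
    have ht' : (t.1 * r) • y = 0 := by rw [mul_smul]; exact ht
    obtain ⟨k, hk⟩ := h.2 _ ht'
    rw [IsLocalization.mk'_eq_zero_iff]
    exact ⟨⟨a ^ k * t.1, S.mul_mem (S.pow_mem ha k) t.2⟩, by rw [← hk]; simp only; ring⟩
  · intro w
    induction w using LocalizedModule.induction_on with
    | _ m s =>
      obtain ⟨k, r, hr⟩ := h.1 m
      refine ⟨IsLocalization.mk' (Localization S) r (⟨a ^ k, S.pow_mem ha k⟩ * s), ?_⟩
      rw [LinearMap.toSpanSingleton_apply, LocalizedModule.mkLinearMap_apply,
        ← Localization.mk_eq_mk', LocalizedModule.mk_smul_mk, mul_one, LocalizedModule.mk_eq]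
      refine ⟨1, ?_⟩
      rw [one_smul, one_smul, ← hr, Submonoid.smul_def, Submonoid.smul_def, smul_smul, Submonoid.coe_mul]
      congr 1
      ring

/-- Elements which locally generate span. -/
theorem span_eq_top {ι : Type*} (x : ι → N)
    (h : ∀ p : PrimeSpectrum R, ∃ i, ∃ a ∉ p.asIdeal, GenAt a (x i)) :
    Submodule.span R (Set.range x) = ⊤ := by
  rw [eq_top_iff]
  intro m _
  let I : Ideal R := (Submodule.span R (Set.range x)).comap (LinearMap.toSpanSingleton R N m)
  have hI : ∀ r : R, r ∈ I ↔ r • m ∈ Submodule.span R (Set.range x) := fun r => Iff.rfl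
  by_contra hm
  have hne : I ≠ ⊤ := by
    intro hI'
    have := (hI 1).1 (hI' ▸ Submodule.mem_top)
    rw [one_smul] at this
    exact hm this
  obtain ⟨M, hM, hIM⟩ := Ideal.exists_le_maximal I hne
  obtain ⟨i, a, ha, hg⟩ := h ⟨M, hM.isPrime⟩
  obtain ⟨k, r, hr⟩ := hg.1 m
  have h1 : a ^ k ∈ I := by
    rw [hI, hr]
    exact Submodule.smul_mem _ _ (Submodule.subset_span ⟨i, rfl⟩)
  exact ha (hM.isPrime.mem_of_pow_mem k (hIM h1))

/-- A module which is locally free with one generator is projective of rank one. -/
theorem projective_and_finrank (h : ∀ p : PrimeSpectrum R, ∃ y : N, ∃ a ∉ p.asIdeal, GenAt a y) :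
    Module.Projective R N ∧ ∀ p : PrimeSpectrum R, Module.finrank (Localization.AtPrime p.asIdeal)
      (LocalizedModule p.asIdeal.primeCompl N) = 1 := by
  have hfp : Module.FinitePresentation R N := by
    refine Module.FinitePresentation.of_localizationSpan {a : R | ∃ y : N, GenAt a y} ?_ ?_
    · by_contra hne
      obtain ⟨M, hM, hIM⟩ := Ideal.exists_le_maximal _ hne
      obtain ⟨y, a, ha, hg⟩ := h ⟨M, hM.isPrime⟩
      exact ha (hIM (Ideal.subset_span ⟨y, hg⟩))
    · rintro ⟨a, y, hy⟩
      let e := LinearEquiv.ofBijective _ (hy.bijective (Submonoid.powers a) (Submonoid.mem_powers a))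
      exact Module.FinitePresentation.of_equiv e
  constructor
  · refine Module.projective_of_localization_maximal fun I hI => ?_
    obtain ⟨y, a, ha, hg⟩ := h ⟨I, hI.isPrime⟩
    exact Module.Projective.of_equiv (LinearEquiv.ofBijective _ (hg.bijective I.primeCompl ha))
  · intro p
    obtain ⟨y, a, ha, hg⟩ := h p
    have e := LinearEquiv.ofBijective _ (hg.bijective p.asIdeal.primeCompl ha)
    exact (LinearEquiv.finrank_eq e).symm.trans (Module.finrank_self _)

end Groth.Agent.Ega2.H296.InvAlg
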