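import Groth.Agent.Ega2.H296.AffGen
import Groth.Agent.CurvesC.ProjSpaceBasic
import Groth.Agent.Ega2.VeryAmpleAmple

/-!
# The pulled back coordinates generate `r^* O(1)`; the relations among them over an affine base

* `generatedBy_pullSec`: for every `r : X ⟶ P^n_R` the sections `r^* T_i` generate `r^* O(1)`.
* `mem_secKernel_iff`: `ProjUP.secKernel` in terms of the standard `R`-module structure on sections over `Spec R`.
* `span_pullSec_eq_top`, `quotEquiv`: `R^{n+1} / secKernel s ≃ Γ(Spec R, s^* O(1))`.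
-/

set_option autoImplicit false
universe u
open CategoryTheory CategoryTheory.Limits AlgebraicGeometry TopologicalSpace Opposite
open Groth.Agent.Fdesc.LocGen
open Groth.Agent.Ega2.H296.InvAlg

namespace Groth.Agent.Ega2.H296.PnGen

variable {n : ℕ} {R : Type u} [CommRing R]

theorem isGen_res_coord (i : Fin (n + 1)) :
    IsGen (res (Twist.twistProjSpace n R 1) (le_top : CurvesC.ProjSpaceBasic.Dp n R i ≤ ⊤)
      (ProjUP.coord n R i : Γ(Twist.twistProjSpace n R 1, ⊤))) :=
  CurvesC.TwistGen.isGen_glob (CohB1.polyGrading n R)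
    (⟨MvPolynomial.X i, MvPolynomial.isHomogeneous_X R i⟩ : CohB1.polyGrading n R 1)

/-- The pulled back coordinates generate the pull back of `O(1)`. -/
theorem generatedBy_pullSec {X : Scheme.{u}} (r : X ⟶ CohB1.ProjSpace n R) :
    ProjUP.GeneratedBy ((Scheme.Modules.pullback r).obj (Twist.twistProjSpace n R 1))
      (fun i => ProjUP.pullSec r (Twist.twistProjSpace n R 1) (ProjUP.coord n R i)) := by
  intro x
  have h0 : r x ∈ ⨆ i, CurvesC.ProjSpaceBasic.Dp n R i := by
    rw [CurvesC.ProjSpaceBasic.iSup_Dp]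
    trivial
  obtain ⟨i, hi⟩ := Opens.mem_iSup.1 h0
  have h1 := (isGen_res_coord (R := R) i).pullSec r
  rw [← res_pullSec] at h1
  have h2 := Ega1.GlobGenPt.span_germ_eq_top h1 x hi
  rw [eq_top_iff, ← h2, Submodule.span_le]
  rintro _ rfl
  rw [Ega1.GlobGenPt.germ_res]
  exact Submodule.subset_span ⟨i, rfl⟩

theorem isInvertible_pullback_twist {X : Scheme.{u}} (r : X ⟶ CohB1.ProjSpace n R) :
    PicF.IsInvertible ((Scheme.Modules.pullback r).obj (Twist.twistProjSpace n R 1)) :=
  isInvertible_pullback r (Ega2.VeryAmpleAmple.isInvertible_twistProjSpace n R 1)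

/-- The two `R`-module structures on global sections over `Spec R` agree. -/
theorem compHom_smul_eq {R : CommRingCat.{u}} {L : (Spec R).Modules} (a : R) (m : Γ(L, ⊤)) :
    ((Scheme.ΓSpecIso R).inv.hom a : Γ(Spec R, ⊤)) • m = a • m := by
  rw [Scheme.Modules.smul_Spec_def]
  congr 1

section Spec

variable {A : CommRingCat.{u}} (s : Spec A ⟶ CohB1.ProjSpace n A)

/-- The pulled back coordinates. -/
noncomputable def y (i : Fin (n + 1)) :
    Γ((Scheme.Modules.pullback s).obj (Twist.twistProjSpace n A 1), ⊤) :=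
  ProjUP.pullSec s (Twist.twistProjSpace n A 1) (ProjUP.coord n A i)

/-- The linear map `A^{n+1} → Γ(Spec A, s^* O(1))` given by the pulled back coordinates. -/
noncomputable def evalMap :
    (Fin (n + 1) → A) →ₗ[A] Γ((Scheme.Modules.pullback s).obj (Twist.twistProjSpace n A 1), ⊤) :=
  Fintype.linearCombination A (y s)

theorem evalMap_apply (c : Fin (n + 1) → A) : evalMap s c = ∑ i, c i • y s i :=
  Fintype.linearCombination_apply A (y s) c

theorem evalMap_apply' (c : Fin (n + 1) → A) :
    evalMap s c = ∑ i, ((Scheme.ΓSpecIso A).inv.hom (c i) : Γ(Spec A, ⊤)) • y s i := by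
  rw [evalMap_apply]
  exact Finset.sum_congr rfl fun i _ => (compHom_smul_eq (c i) (y s i)).symm

theorem evalMap_surjective : Function.Surjective (evalMap s) := by
  rw [← LinearMap.range_eq_top, evalMap, Fintype.range_linearCombination]
  exact AffGen.span_eq_top_of_generatedBy _ (isInvertible_pullback_twist s) (generatedBy_pullSec s)

theorem exists_genAt (p : PrimeSpectrum A) : ∃ i, ∃ a ∉ p.asIdeal, GenAt (R := A) a (y s i) :=
  AffGen.exists_genAt_of_generatedBy _ (isInvertible_pullback_twist s) (generatedBy_pullSec s) p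

end Spec

theorem mem_secKernel_iff (s : Spec (CommRingCat.of R) ⟶ CohB1.ProjSpace n R) (c : Fin (n + 1) → R) :
    c ∈ ProjUP.secKernel n R s ↔ evalMap (A := CommRingCat.of R) s c = 0 := by
  have h := evalMap_apply' (A := CommRingCat.of R) s c
  rw [h]
  letI : Module R (ProjUP.Γm ((Scheme.Modules.pullback s).obj (Twist.twistProjSpace n R 1))) :=
    Module.compHom _ (Scheme.ΓSpecIso (CommRingCat.of R)).inv.hom
  change Fintype.linearCombination R
    (fun i => ProjUP.pullSec s (Twist.twistProjSpace n R 1) (ProjUP.coord n R i)) c = 0 ↔ _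
  rw [Fintype.linearCombination_apply]
  rfl

end Groth.Agent.Ega2.H296.PnGen
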