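import Groth.Agent.Ega2.H296.PnGen
import Groth.Agent.S3591
import Mathlib.LinearAlgebra.SymmetricAlgebra.Basis

/-!
# Sections of projective space over an affine base and submodules of `R^{n+1}` with invertible quotient
-/

set_option autoImplicit false
universe u
open CategoryTheory CategoryTheory.Limits AlgebraicGeometry TopologicalSpace Opposite
open Groth.Agent.Fdesc.LocGen
open Groth.Agent.Ega2.H296.InvAlg

namespace Groth.Agent.Ega2.H296.SecSub

theorem GenAt.of_equiv {A : Type*} [CommRing A] {M N : Type*} [AddCommGroup M] [Module A M] [AddCommGroup N]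
    [Module A N] (e : M ≃ₗ[A] N) {a : A} {y : N} (h : GenAt a y) : GenAt a (e.symm y) := by
  refine ⟨fun m => ?_, fun r hr => ?_⟩
  · obtain ⟨k, r, hk⟩ := h.1 (e m)
    refine ⟨k, r, e.injective ?_⟩
    rw [map_smul, hk, map_smul, e.apply_symm_apply]
  · refine h.2 r ?_
    rw [← e.apply_symm_apply y, ← map_smul, hr, map_zero]

variable {n : ℕ} {A : CommRingCat.{u}}

/-- The relations among the pulled back coordinates. -/
noncomputable def kerSub (s : Spec A ⟶ CohB1.ProjSpace n A) : Submodule A (Fin (n + 1) → A) :=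
  LinearMap.ker (PnGen.evalMap s)

theorem mem_kerSub (s : Spec A ⟶ CohB1.ProjSpace n A) (c : Fin (n + 1) → A) :
    c ∈ kerSub s ↔ PnGen.evalMap s c = 0 := Iff.rfl

theorem secKernel_eq {R : Type u} [CommRing R] (s : Spec (CommRingCat.of R) ⟶ CohB1.ProjSpace n R) :
    ProjUP.secKernel n R s = kerSub (A := CommRingCat.of R) s :=
  Submodule.ext fun c => PnGen.mem_secKernel_iff s c

theorem forward (s : Spec A ⟶ CohB1.ProjSpace n A) :
    Module.Projective A ((Fin (n + 1) → A) ⧸ kerSub s) ∧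
      ∀ p : PrimeSpectrum A, Module.finrank (Localization.AtPrime p.asIdeal)
        (LocalizedModule p.asIdeal.primeCompl ((Fin (n + 1) → A) ⧸ kerSub s)) = 1 := by
  let e := (PnGen.evalMap s).quotKerEquivOfSurjective (PnGen.evalMap_surjective s)
  refine projective_and_finrank fun p => ?_
  obtain ⟨i, a, ha, h⟩ := PnGen.exists_genAt s p
  exact ⟨e.symm (PnGen.y s i), a, ha, GenAt.of_equiv e h⟩

/-- The linear forms. -/
noncomputable def lin (n : ℕ) (R : Type u) [CommRing R] : (Fin (n + 1) → R) →ₗ[R] MvPolynomial (Fin (n + 1)) R :=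
  (Pi.basisFun R (Fin (n + 1))).constr R MvPolynomial.X

theorem lin_single (n : ℕ) (R : Type u) [CommRing R] (i : Fin (n + 1)) :
    lin n R (Pi.single i 1) = MvPolynomial.X i := by
  rw [lin, ← Pi.basisFun_apply, Module.Basis.constr_basis]

theorem lin_mem (n : ℕ) (R : Type u) [CommRing R] (m : Fin (n + 1) → R) : lin n R m ∈ CohB1.polyGrading n R 1 := by
  rw [lin, Module.Basis.constr_apply_fintype]
  refine Submodule.sum_mem _ fun i _ => Submodule.smul_mem _ _ ?_
  exact (MvPolynomial.mem_homogeneousSubmodule _ _).2 (MvPolynomial.isHomogeneous_X R i)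

theorem isSymmetricAlgebra_lin (n : ℕ) (R : Type u) [CommRing R] : IsSymmetricAlgebra (lin n R) :=
  SymmetricAlgebra.IsSymmetricAlgebra.mvPolynomial (Fin (n + 1)) (Pi.basisFun R (Fin (n + 1)))

section backward

variable (F : Submodule A (Fin (n + 1) → A))

/-- The class of a vector as a global section of the sheaf of the quotient. -/
noncomputable def cls : (Fin (n + 1) → A) →+ Γ(tilde (ModuleCat.of A ((Fin (n + 1) → A) ⧸ F)), ⊤) where
  toFun c := Ega4dA.SpecGen.sec ⊤ (F.mkQ c)
  map_zero' := by rw [map_zero]; exact (tilde.toOpen _ ⊤).hom.map_zero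
  map_add' c d := by rw [map_add]; exact Ega4dA.SpecGen.sec_add ⊤ _ _

theorem cls_apply (c : Fin (n + 1) → A) : cls F c = Ega4dA.SpecGen.sec ⊤ (F.mkQ c) := rfl

theorem cls_smul (a : A) (c : Fin (n + 1) → A) : cls F (a • c) = a • cls F c := by
  rw [cls_apply, cls_apply, map_smul]
  exact Ega4dA.SpecGen.sec_smul ⊤ a _

theorem cls_eq_zero_iff (c : Fin (n + 1) → A) : cls F c = 0 ↔ c ∈ F := by
  have hF : c ∈ F ↔ F.mkQ c = 0 := by
    rw [Submodule.mkQ_apply, Submodule.Quotient.mk_eq_zero]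
  rw [hF, cls_apply]
  have h : Function.Bijective (tilde.toOpen (ModuleCat.of A ((Fin (n + 1) → A) ⧸ F)) ⊤) :=
    ConcreteCategory.bijective_of_isIso _
  constructor
  · intro h0
    refine h.1 (h0.trans ?_)
    exact ((tilde.toOpen (ModuleCat.of A ((Fin (n + 1) → A) ⧸ F)) ⊤).hom.map_zero).symm
  · intro h0
    rw [h0]
    exact (tilde.toOpen (ModuleCat.of A ((Fin (n + 1) → A) ⧸ F)) ⊤).hom.map_zero

theorem cls_eq_sum (c : Fin (n + 1) → A) : cls F c = ∑ i, c i • cls F (Pi.single i 1) := by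
  have h : c = ∑ i, c i • (Pi.single i 1 : Fin (n + 1) → A) := by
    have := (Pi.basisFun A (Fin (n + 1))).sum_repr c
    simpa using this.symm
  conv_lhs => rw [h]
  rw [map_sum]
  exact Finset.sum_congr rfl fun i _ => cls_smul F _ _

variable (h : Module.Projective A ((Fin (n + 1) → A) ⧸ F) ∧
      ∀ p : PrimeSpectrum A, Module.finrank (Localization.AtPrime p.asIdeal)
        (LocalizedModule p.asIdeal.primeCompl ((Fin (n + 1) → A) ⧸ F)) = 1)

include h in
theorem exists_genAt_mkQ (p : PrimeSpectrum A) :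
    ∃ i, ∃ a ∉ p.asIdeal, GenAt (R := A) a (F.mkQ (Pi.single i 1)) := by
  have := h.1
  refine InvAlg2.exists_genAt (fun i => F.mkQ (Pi.single i 1)) ?_ h.2 p
  rw [eq_top_iff]
  intro m _
  obtain ⟨c, rfl⟩ := F.mkQ_surjective m
  have h : c = ∑ i, c i • (Pi.single i 1 : Fin (n + 1) → A) := by
    have := (Pi.basisFun A (Fin (n + 1))).sum_repr c
    simpa using this.symm
  rw [h, map_sum]
  refine Submodule.sum_mem _ fun i _ => ?_
  rw [map_smul]
  exact Submodule.smul_mem _ _ (Submodule.subset_span ⟨i, rfl⟩)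

include h in
theorem isInvertible_cls : PicF.IsInvertible (tilde (ModuleCat.of A ((Fin (n + 1) → A) ⧸ F))) :=
  AffGen.isInvertible_tilde fun p => by
    obtain ⟨i, a, ha, hy⟩ := exists_genAt_mkQ F h p
    exact ⟨_, a, ha, hy⟩

include h in
theorem generatedBy_cls : ProjUP.GeneratedBy (tilde (ModuleCat.of A ((Fin (n + 1) → A) ⧸ F))) (cls F) :=
  AffGen.generatedBy_tilde (Q := ModuleCat.of A ((Fin (n + 1) → A) ⧸ F)) (fun c => F.mkQ c) fun p => by
    obtain ⟨i, a, ha, hy⟩ := exists_genAt_mkQ F h p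
    exact ⟨_, a, ha, hy⟩

theorem coord_eq (i : Fin (n + 1)) : ProjUP.coord n A i =
    Twist.globalOf (CohB1.polyGrading n A) ⟨lin n A (Pi.single i 1), lin_mem n A _⟩ := by
  have h : (⟨MvPolynomial.X i, MvPolynomial.isHomogeneous_X A i⟩ : CohB1.polyGrading n A 1) =
      ⟨lin n A (Pi.single i 1), lin_mem n A _⟩ := Subtype.ext (lin_single n A i).symm
  exact congrArg (Twist.globalOf (CohB1.polyGrading n A)) h

theorem toGlobal_smul {L : (Spec A).Modules} (a : A) (m : Γ(L, ⊤)) :
    ProjUP.toGlobal (𝟙 (Spec A)) a • m = a • m := by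
  rw [← PnGen.compHom_smul_eq]
  congr 1

include h in
theorem exists_section : ∃ (r : Spec A ⟶ CohB1.ProjSpace n A)
    (τ : (Scheme.Modules.pullback r).obj (Twist.twistProjSpace n A 1) ≅
      tilde (ModuleCat.of A ((Fin (n + 1) → A) ⧸ F))),
    r ≫ CohB1.ProjSpace.toSpec n A = 𝟙 _ ∧ ∀ i, τ.hom.app ⊤ (PnGen.y r i) = cls F (Pi.single i 1) := by
  obtain ⟨r, hr, τ, hτ⟩ := S3591.result (CohB1.polyGrading n A) (lin n A) (lin_mem n A)
    (isSymmetricAlgebra_lin n A) (𝟙 (Spec A)) (tilde (ModuleCat.of A ((Fin (n + 1) → A) ⧸ F)))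
    (isInvertible_cls F h) (cls F) (fun a m => by
      rw [cls_smul]
      exact (toGlobal_smul a (cls F m)).symm) (generatedBy_cls F h)
  refine ⟨r, τ, hr, fun i => ?_⟩
  rw [← hτ]
  exact congrArg (fun z => τ.hom.app ⊤ (ProjUP.pullSec r (Twist.twist (CohB1.polyGrading n A) 1) z))
    (coord_eq i)

include h in
theorem backward : ∃ s : Spec A ⟶ CohB1.ProjSpace n A, s ≫ CohB1.ProjSpace.toSpec n A = 𝟙 _ ∧
    kerSub s = F := by
  obtain ⟨r, τ, hr, hy⟩ := exists_section F h
  refine ⟨r, hr, ?_⟩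
  ext c
  have h1 : τ.hom.app ⊤ (PnGen.evalMap r c) = cls F c := by
    rw [PnGen.evalMap_apply', map_sum, cls_eq_sum]
    refine Finset.sum_congr rfl fun i _ => ?_
    rw [← hy, ← PnGen.compHom_smul_eq]
    exact Scheme.Modules.Hom.app_smul τ.hom _ _
  have hb : Function.Bijective (τ.hom.app ⊤) := ConcreteCategory.bijective_of_isIso _
  rw [mem_kerSub, ← cls_eq_zero_iff, ← h1]
  constructor
  · intro h0
    rw [h0, map_zero]
  · intro h0
    exact hb.1 (h0.trans (map_zero (τ.hom.app ⊤).hom).symm)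

end backward

end Groth.Agent.Ega2.H296.SecSub
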